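import Cfsg.Agent.Base
import Cfsg.Agent.Lib.Comp.Component
import Cfsg.Agent.Lib.LocEven.Basic
import Cfsg.Agent.S0144

/-! Commutator calculus `[V, g, h] = 0` written in the endomorphism ring. -/

set_option autoImplicit false
set_option linter.style.haveILetI false
set_option linter.unusedSectionVars false
namespace H72.PGV
open Cfsg Subgroup H68
open scoped commutatorElement
variable {G R : Type*} [Group G] [Ring R] (φ : G →* R)

theorem map_mul_inv (g : G) : φ g * φ g⁻¹ = 1 := by rw [← map_mul, mul_inv_cancel, map_one]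
theorem map_inv_mul (g : G) : φ g⁻¹ * φ g = 1 := by rw [← map_mul, inv_mul_cancel, map_one]

/-- The left stabiliser of a ring element. -/
def St (e : R) : Subgroup G where
  carrier := {h | φ h * e = e}
  one_mem' := by simp
  mul_mem' := by
    intro a b ha hb
    simp only [Set.mem_ofPred_eq] at *
    rw [map_mul, mul_assoc, hb, ha]
  inv_mem' := by
    intro a ha
    simp only [Set.mem_ofPred_eq] at *
    conv_lhs => rw [← ha]
    rw [← mul_assoc, map_inv_mul, one_mul]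

/-- The elements centralising `[V, g]`. -/
def Ann (g : G) : Subgroup G := St φ (φ g - 1)

variable {φ}

theorem mem_St {e : R} {h : G} : h ∈ St φ e ↔ (φ h - 1) * e = 0 := by
  rw [sub_mul, one_mul, sub_eq_zero]; rfl

theorem mem_Ann {g h : G} : h ∈ Ann φ g ↔ (φ h - 1) * (φ g - 1) = 0 := mem_St

theorem Ann_symm {g h : G} (hc : g * h = h * g) (H : h ∈ Ann φ g) : g ∈ Ann φ h := by
  rw [mem_Ann] at H ⊢
  have : φ g * φ h = φ h * φ g := by rw [← map_mul, hc, map_mul]
  rw [← H]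
  simp only [sub_mul, mul_sub, one_mul, mul_one, this]
  abel

theorem D_conj (k g : G) : φ (k * g * k⁻¹) - 1 = φ k * (φ g - 1) * φ k⁻¹ := by
  rw [mul_sub, sub_mul, mul_one, map_mul_inv, map_mul, map_mul]

theorem D_mul (x g : G) : (φ x - 1) * φ g = φ g * (φ (g⁻¹ * x * g) - 1) := by
  rw [mul_sub, sub_mul, mul_one, one_mul, ← map_mul, ← map_mul]
  congr 2
  group

theorem conj_mem_Ann {g h : G} (H : h ∈ Ann φ g) (k : G) :
    k * h * k⁻¹ ∈ Ann φ (k * g * k⁻¹) := by
  rw [mem_Ann] at H ⊢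
  rw [D_conj, D_conj]
  calc φ k * (φ h - 1) * φ k⁻¹ * (φ k * (φ g - 1) * φ k⁻¹)
      = φ k * ((φ h - 1) * (φ k⁻¹ * φ k) * (φ g - 1)) * φ k⁻¹ := by simp only [mul_assoc]
    _ = 0 := by rw [map_inv_mul, mul_one, H, mul_zero, zero_mul]

theorem conj_mem_Ann' {g h k : G} (H : h ∈ Ann φ g) (hk : k * g = g * k) :
    k * h * k⁻¹ ∈ Ann φ g := by
  have := conj_mem_Ann H k
  rwa [hk, mul_inv_cancel_right] at this

theorem le_normalizer_of_conj {K H : Subgroup G} (h : ∀ k ∈ K, ∀ x ∈ H, k * x * k⁻¹ ∈ H) :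
    K ≤ normalizer (H : Set G) := by
  intro k hk
  rw [mem_normalizer_iff]
  refine fun x => ⟨h k hk x, fun hx => ?_⟩
  have := h k⁻¹ (inv_mem hk) _ hx
  simpa [mul_assoc] using this

theorem comp_le {K H : Subgroup G} (hK : IsComponent K) (h : ∀ k ∈ K, ∀ x ∈ H, k * x * k⁻¹ ∈ H)
    {u : G} (hu : u ∈ H) (hn : u ∉ centralizer (K : Set G)) : K ≤ H := by
  refine (H23.IsComponent.le_or_commutator_eq_bot_of_le_normalizer hK
    (le_normalizer_of_conj h)).resolve_right fun e => hn ?_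
  rw [commutator_comm] at e
  exact commutator_eq_bot_iff_le_centralizer.1 e hu

theorem comp_le_Ann {K : Subgroup G} (hK : IsComponent K) {g u : G}
    (hg : g ∈ centralizer (K : Set G)) (hu : u ∈ Ann φ g) (hn : u ∉ centralizer (K : Set G)) :
    K ≤ Ann φ g :=
  comp_le hK (fun k hk _ hx => conj_mem_Ann' hx (hg k hk)) hu hn

/-- `[V, K, L] = 0`. -/
def Orth (φ : G →* R) (K L : Subgroup G) : Prop := ∀ k ∈ K, L ≤ Ann φ k

theorem orth_of {K L : Subgroup G} (hL : IsComponent L) (hc : L ≤ centralizer (K : Set G)) {u : G}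
    (hu : ∀ k ∈ K, u ∈ Ann φ k) (hn : u ∉ centralizer (L : Set G)) : Orth φ K L :=
  fun k hk => comp_le_Ann hL (fun _ hl => (hc hl k hk).symm) (hu k hk) hn

theorem Orth.symm {K L : Subgroup G} (h : Orth φ K L) (hc : L ≤ centralizer (K : Set G)) :
    Orth φ L K := fun _ hl k hk => Ann_symm (hc hl k hk) (h k hk hl)

/-- `[W, K, K] = 0` forces `[W, K] = 0` for perfect `K`. -/
theorem le_St_of_perfect {K : Subgroup G} (hK : ⁅K, K⁆ = K) {e : R}
    (h : ∀ x ∈ K, ∀ y ∈ K, (φ x - 1) * (φ y - 1) * e = 0) : K ≤ St φ e := by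
  rw [← hK, commutator_le]
  intro x hx y hy
  have h1 := h x⁻¹ (inv_mem hx) y⁻¹ (inv_mem hy)
  have h2 := h y⁻¹ (inv_mem hy) x⁻¹ (inv_mem hx)
  have h3 : φ x⁻¹ * φ y⁻¹ * e = φ y⁻¹ * φ x⁻¹ * e := by
    linear_combination (norm := noncomm_ring) h1 - h2
  show φ ⁅x, y⁆ * e = e
  rw [commutatorElement_def, map_mul, map_mul, map_mul]
  calc φ x * φ y * φ x⁻¹ * φ y⁻¹ * e = φ x * φ y * (φ x⁻¹ * φ y⁻¹ * e) := by
        simp only [mul_assoc]
    _ = φ x * ((φ y * φ y⁻¹) * φ x⁻¹) * e := by rw [h3]; simp only [mul_assoc]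
    _ = e := by rw [map_mul_inv, one_mul, map_mul_inv, one_mul]

theorem eq_bot_of_triple (hφ : Function.Injective φ) {K : Subgroup G} (hK : ⁅K, K⁆ = K)
    (h : ∀ x ∈ K, ∀ y ∈ K, ∀ z ∈ K, (φ x - 1) * (φ y - 1) * (φ z - 1) = 0) : K = ⊥ := by
  have h1 : ∀ z ∈ K, K ≤ St φ (φ z - 1) := fun z hz =>
    le_St_of_perfect hK fun x hx y hy => h x hx y hy z hz
  have h2 : K ≤ St φ (1 : R) := le_St_of_perfect hK fun x hx y hy => by
    rw [mul_one]; exact mem_St.1 (h1 y hy hx)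
  rw [eq_bot_iff]
  intro x hx
  have := mem_St.1 (h2 hx)
  rw [mul_one, sub_eq_zero, ← map_one φ] at this
  exact hφ this

/-- An element normalising `K` and trivial on `[V, K] / C(K)` centralises `K`. -/
theorem mem_centralizer_of_triple (hφ : Function.Injective φ) {K : Subgroup G}
    (hK : IsComponent K) {b : G} (hb : b ∈ normalizer (K : Set G))
    (h : ∀ x ∈ K, ∀ z ∈ K, (φ x - 1) * (φ b - 1) * (φ z - 1) = 0) :
    b ∈ centralizer (K : Set G) := by
  have key : ∀ g ∈ normalizer (K : Set G), ∀ e : R, (∀ x ∈ K, (φ x - 1) * e = 0) →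
      ∀ x ∈ K, (φ x - 1) * (φ g * e) = 0 := by
    intro g hg e he x hx
    have := he _ (conj_mem_of_mem_normalizer (inv_mem hg) hx)
    rw [inv_inv] at this
    rw [← mul_assoc, D_mul, mul_assoc, this, mul_zero]
  let H : Subgroup G :=
    { carrier := {g | g ∈ normalizer (K : Set G) ∧
        ∀ x ∈ K, ∀ z ∈ K, (φ x - 1) * (φ g - 1) * (φ z - 1) = 0}
      mul_mem' := by
        rintro g g' ⟨h1, h2⟩ ⟨h3, h4⟩
        refine ⟨mul_mem h1 h3, fun x hx z hz => ?_⟩
        have h5 := key g h1 ((φ g' - 1) * (φ z - 1))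
          (fun x hx => by rw [← mul_assoc]; exact h4 x hx z hz) x hx
        rw [map_mul]
        linear_combination (norm := noncomm_ring) h5 + h2 x hx z hz
      one_mem' := ⟨one_mem _, by simp⟩
      inv_mem' := by
        rintro g ⟨h1, h2⟩
        refine ⟨inv_mem h1, fun x hx z hz => ?_⟩
        have h5 := key g⁻¹ (inv_mem h1) ((φ g - 1) * (φ z - 1))
          (fun x hx => by rw [← mul_assoc]; exact h2 x hx z hz) x hx
        rw [← mul_assoc (φ g⁻¹), mul_sub (φ g⁻¹), map_inv_mul] at h5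
        linear_combination (norm := noncomm_ring) -h5 }
  by_contra hn
  have hle : K ≤ H := by
    refine comp_le hK ?_ (u := b) ⟨hb, h⟩ hn
    rintro k hk g ⟨h1, h2⟩
    refine ⟨mul_mem (mul_mem (le_normalizer hk) h1) (inv_mem (le_normalizer hk)), fun x hx z hz => ?_⟩
    have h3 := h2 (k⁻¹ * x * k⁻¹⁻¹) (mul_mem (mul_mem (inv_mem hk) hx) (inv_mem (inv_mem hk)))
      (k⁻¹ * z * k⁻¹⁻¹) (mul_mem (mul_mem (inv_mem hk) hz) (inv_mem (inv_mem hk)))
    rw [D_conj, D_conj, inv_inv] at h3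
    rw [D_conj]
    calc _ = (φ k * φ k⁻¹) * (φ x - 1) * (φ k * (φ g - 1) * φ k⁻¹) * (φ z - 1) * (φ k * φ k⁻¹) := by
          rw [map_mul_inv, one_mul, mul_one]
      _ = φ k * (φ k⁻¹ * (φ x - 1) * φ k * (φ g - 1) * (φ k⁻¹ * (φ z - 1) * φ k)) * φ k⁻¹ := by
          simp only [mul_assoc]
      _ = 0 := by rw [h3, mul_zero, zero_mul]
  exact H23.IsComponent.ne_bot hK (eq_bot_of_triple hφ (H23.IsComponent.commutator_self hK)
    fun x hx y hy z hz => (hle hy).2 x hx z hz)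

end H72.PGV
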